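import Mathlib

/-!
# Composition length through subnormal chains
-/

set_option autoImplicit false

namespace CfsgLib.CompLength

open ArithmeticFunction

variable {G Q : Type*} [Group G] [Group Q]

/-- `SNChain K l`: a chain `⊥ = H₀ < ⋯ < H_l = K`, each term normal in the next. -/
inductive SNChain : Subgroup G → ℕ → Prop
  | bot : SNChain ⊥ 0
  | step {H K : Subgroup G} {l : ℕ} : SNChain H l → H < K → (H.subgroupOf K).Normal → SNChain K (l + 1)

/-- The composition length: the supremum of the lengths of subnormal chains. -/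
noncomputable def compLen (G : Type*) [Group G] : ℕ := sSup {l | SNChain (⊤ : Subgroup G) l}

theorem SNChain.le_cardFactors [Finite G] {K : Subgroup G} {l : ℕ} (h : SNChain K l) :
    l ≤ cardFactors (Nat.card K) := by
  induction h with
  | bot => exact Nat.zero_le _
  | @step H K l _ hlt _ ih =>
    have hm := Subgroup.relIndex_mul_relIndex ⊥ H K bot_le hlt.le
    rw [Subgroup.relIndex_bot_left, Subgroup.relIndex_bot_left] at hm
    have h1 : H.relIndex K ≠ 1 := fun e => hlt.not_ge (Subgroup.relIndex_eq_one.mp e)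
    have h0 : H.relIndex K ≠ 0 := fun e => Nat.card_pos.ne' (by rw [← hm, e, mul_zero])
    rw [← hm, cardFactors_mul Nat.card_pos.ne' h0]
    have : 1 ≤ cardFactors (H.relIndex K) := by
      rw [Nat.one_le_iff_ne_zero, Ne, cardFactors_eq_zero_iff_eq_zero_or_one]
      tauto
    omega

theorem bddAbove_chains [Finite G] : BddAbove {l | SNChain (⊤ : Subgroup G) l} :=
  ⟨_, fun _ h => h.le_cardFactors⟩

theorem le_compLen [Finite G] {l : ℕ} (h : SNChain (⊤ : Subgroup G) l) : l ≤ compLen G :=
  le_csSup bddAbove_chains h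

theorem exists_chain_normal (N : Subgroup G) :
    ∃ a, SNChain N a ∧ (N ≠ ⊥ → 1 ≤ a) := by
  rcases eq_or_ne N ⊥ with rfl | h
  · exact ⟨0, SNChain.bot, fun h => absurd rfl h⟩
  · refine ⟨1, SNChain.bot.step h.bot_lt ?_, fun _ => le_rfl⟩
    rw [Subgroup.bot_subgroupOf]; infer_instance

theorem exists_chain_top [Finite G] : SNChain (⊤ : Subgroup G) (compLen G) := by
  obtain ⟨a, ha, -⟩ := exists_chain_normal (⊤ : Subgroup G)
  exact Nat.sSup_mem ⟨a, ha⟩ bddAbove_chains

theorem compLen_le_cardFactors [Finite G] : compLen G ≤ cardFactors (Nat.card G) := by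
  have := (exists_chain_top (G := G)).le_cardFactors
  rwa [Subgroup.card_top] at this

/-- chains through a homomorphism split between kernel and image -/
theorem SNChain.split (f : G →* Q) {K : Subgroup G} {l : ℕ} (h : SNChain K l) :
    ∃ a b, SNChain (K.subgroupOf f.ker) a ∧ SNChain (K.map f) b ∧ l ≤ a + b := by
  induction h with
  | bot => exact ⟨0, 0, by rw [Subgroup.bot_subgroupOf]; exact .bot, by rw [Subgroup.map_bot]; exact .bot, le_rfl⟩
  | @step H K l _ hlt hn ih =>
    obtain ⟨a, b, ha, hb, hl⟩ := ih
    have hN : K ≤ Subgroup.normalizer (H : Set G) :=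
      (Subgroup.normal_subgroupOf_iff_le_normalizer hlt.le).mp hn
    have hle1 : H.subgroupOf f.ker ≤ K.subgroupOf f.ker := Subgroup.comap_mono hlt.le
    have hle2 : H.map f ≤ K.map f := Subgroup.map_mono hlt.le
    have hn1 : ((H.subgroupOf f.ker).subgroupOf (K.subgroupOf f.ker)).Normal :=
      (Subgroup.normal_subgroupOf_iff_le_normalizer hle1).mpr
        ((Subgroup.comap_mono hN).trans (Subgroup.le_normalizer_comap _))
    have hn2 : ((H.map f).subgroupOf (K.map f)).Normal :=
      (Subgroup.normal_subgroupOf_iff_le_normalizer hle2).mpr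
        ((Subgroup.map_mono hN).trans (Subgroup.le_normalizer_map _))
    by_cases e1 : H.subgroupOf f.ker = K.subgroupOf f.ker
    · have e2 : H.map f ≠ K.map f := by
        intro e2
        refine hlt.not_ge fun x hx => ?_
        obtain ⟨y, hy, hyx⟩ : f x ∈ H.map f := e2 ▸ Subgroup.mem_map_of_mem f hx
        have hk : y⁻¹ * x ∈ f.ker := by
          rw [MonoidHom.mem_ker, map_mul, map_inv, hyx, inv_mul_cancel]
        have : (⟨_, hk⟩ : f.ker) ∈ H.subgroupOf f.ker := by
          rw [e1]; exact K.mul_mem (K.inv_mem (hlt.le hy)) hx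
        simpa using H.mul_mem hy this
      exact ⟨a, b + 1, e1 ▸ ha, hb.step (lt_of_le_of_ne hle2 e2) hn2, by omega⟩
    · by_cases e2 : H.map f = K.map f
      · exact ⟨a + 1, b, ha.step (lt_of_le_of_ne hle1 e1) hn1, e2 ▸ hb, by omega⟩
      · exact ⟨a + 1, b + 1, ha.step (lt_of_le_of_ne hle1 e1) hn1,
          hb.step (lt_of_le_of_ne hle2 e2) hn2, by omega⟩

theorem compLen_le_ker_add [Finite G] [Finite Q] (f : G →* Q) (hf : Function.Surjective f) :
    compLen G ≤ compLen f.ker + compLen Q := by
  obtain ⟨a, b, ha, hb, hl⟩ := (exists_chain_top (G := G)).split f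
  rw [show (⊤ : Subgroup G).subgroupOf f.ker = ⊤ from Subgroup.top_subgroupOf _] at ha
  rw [Subgroup.map_top_of_surjective f hf] at hb
  have := le_compLen ha
  have := le_compLen hb
  omega

theorem SNChain.mapInj (f : G →* Q) (hf : Function.Injective f) {K : Subgroup G} {l : ℕ}
    (h : SNChain K l) : SNChain (K.map f) l := by
  induction h with
  | bot => rw [Subgroup.map_bot]; exact .bot
  | @step H K l _ hlt hn ih =>
    refine ih.step ?_ ?_
    · exact (Subgroup.map_lt_map_iff_of_injective hf).mpr hlt
    · exact (Subgroup.normal_subgroupOf_iff_le_normalizer (Subgroup.map_mono hlt.le)).mpr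
        ((Subgroup.map_mono ((Subgroup.normal_subgroupOf_iff_le_normalizer hlt.le).mp hn)).trans
          (Subgroup.le_normalizer_map _))

theorem SNChain.add_comap (f : G →* Q) (hf : Function.Surjective f) {a : ℕ}
    (ha : SNChain f.ker a) {K : Subgroup Q} {l : ℕ} (h : SNChain K l) :
    SNChain (K.comap f) (a + l) := by
  induction h with
  | bot => exact ha
  | @step H K l _ hlt hn ih =>
    refine ih.step ?_ ?_
    · exact (Subgroup.comap_lt_comap_of_surjective hf).mpr hlt
    · exact (Subgroup.normal_subgroupOf_iff_le_normalizer (Subgroup.comap_mono hlt.le)).mpr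
        ((Subgroup.comap_mono ((Subgroup.normal_subgroupOf_iff_le_normalizer hlt.le).mp hn)).trans
          (Subgroup.le_normalizer_comap _))

theorem add_compLen_le [Finite G] [Finite Q] (f : G →* Q) (hf : Function.Surjective f) {a : ℕ}
    (ha : SNChain f.ker a) : a + compLen Q ≤ compLen G :=
  le_compLen (by simpa using SNChain.add_comap f hf ha (exists_chain_top (G := Q)))

theorem compLen_le_of_surjective [Finite G] [Finite Q] (f : G →* Q) (hf : Function.Surjective f) :
    compLen Q ≤ compLen G := by
  obtain ⟨a, ha, -⟩ := exists_chain_normal f.ker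
  have := add_compLen_le f hf ha
  omega

theorem compLen_congr [Finite G] [Finite Q] (e : G ≃* Q) : compLen G = compLen Q :=
  le_antisymm (compLen_le_of_surjective e.symm.toMonoidHom e.symm.surjective)
    (compLen_le_of_surjective e.toMonoidHom e.surjective)

theorem SNChain.eq_zero_of_bot {l : ℕ} (h : SNChain (⊥ : Subgroup G) l) : l = 0 := by
  generalize hK : (⊥ : Subgroup G) = K at h
  cases h with
  | bot => rfl
  | step _ hlt _ => exact absurd (hK ▸ hlt) not_lt_bot

theorem compLen_of_subsingleton [Finite G] [Subsingleton G] : compLen G = 0 := by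
  have h := exists_chain_top (G := G)
  rw [Subsingleton.elim (⊤ : Subgroup G) ⊥] at h
  exact h.eq_zero_of_bot

theorem compLen_le_one [Finite G] [IsSimpleGroup G] : compLen G ≤ 1 := by
  have h := exists_chain_top (G := G)
  generalize hl : compLen G = l at h
  generalize hK : (⊤ : Subgroup G) = K at h
  cases h with
  | bot => exact zero_le_one
  | @step H _ l h hlt hn =>
    subst hK
    have : H.Normal := by
      have := (Subgroup.normal_subgroupOf_iff_le_normalizer le_top).mp hn
      exact Subgroup.normalizer_eq_top_iff.mp (top_le_iff.mp this)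
    rcases Subgroup.Normal.eq_bot_or_eq_top this with rfl | rfl
    · have := h.eq_zero_of_bot; omega
    · exact absurd hlt (lt_irrefl _)

theorem SNChain.ofFin {l : ℕ} (H : Fin (l + 1) → Subgroup G) (h0 : H 0 = ⊥)
    (hchain : ∀ i : Fin l, H i.castSucc < H i.succ ∧ ((H i.castSucc).subgroupOf (H i.succ)).Normal) :
    ∀ i : Fin (l + 1), SNChain (H i) i := by
  intro i
  induction i using Fin.induction with
  | zero => rw [h0]; exact .bot
  | succ i ih =>
    rw [Fin.val_succ]
    exact SNChain.step (by simpa using ih) (hchain i).1 (hchain i).2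

theorem cardFactors_le_of_dvd {m n : ℕ} (hn : n ≠ 0) (h : m ∣ n) : cardFactors m ≤ cardFactors n := by
  obtain ⟨c, rfl⟩ := h
  rw [cardFactors_mul (left_ne_zero_of_mul hn) (right_ne_zero_of_mul hn)]
  exact Nat.le_add_right _ _

theorem two_pow_cardFactors_le {n : ℕ} (hn : n ≠ 0) : 2 ^ cardFactors n ≤ n := by
  rw [cardFactors_apply]
  conv_rhs => rw [← Nat.prod_primeFactorsList hn]
  exact List.pow_card_le_prod _ _ fun p hp => (Nat.prime_of_mem_primeFactorsList hp).two_le

theorem cardFactors_le_log {n : ℕ} (hn : n ≠ 0) : cardFactors n ≤ Nat.log 2 n :=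
  Nat.le_log_of_pow_le one_lt_two (two_pow_cardFactors_le hn)

end CfsgLib.CompLength
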