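import Mathlib
import Cfsg.Agent.CompLength.Basic

/-!
# Length bound for groups of linear maps on an elementary abelian group
-/

set_option autoImplicit false

namespace CfsgLib.CompLength

open ArithmeticFunction

theorem card_dvd_GL_aux {S N : Type*} [Group S] [Finite S] [CommGroup N] [Finite N] (p d : ℕ) [Fact p.Prime]
    [Module (ZMod p) (Additive N)] (hcard : Nat.card N = p ^ d) (f : S →* MulAut N)
    (hf : Function.Injective f) : Nat.card S ∣ ∏ i : Fin d, (p ^ d - p ^ (i : ℕ)) := by
  have : Module.Finite (ZMod p) (Additive N) := Module.Finite.of_finite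
  have hfr : Module.finrank (ZMod p) (Additive N) = d := by
    have h := Module.natCard_eq_pow_finrank (K := ZMod p) (V := Additive N)
    rw [Nat.card_zmod, show Nat.card (Additive N) = Nat.card N from Nat.card_congr Additive.toMul, hcard] at h
    exact (Nat.pow_right_injective (Fact.out : p.Prime).two_le h).symm
  let b := Module.finBasisOfFinrankEq (ZMod p) (Additive N) hfr
  let A : S → Module.End (ZMod p) (Additive N) := fun s =>
    AddMonoidHom.toZModLinearMap p (MonoidHom.toAdditive ((f s).toMonoidHom))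
  let ρ : S →* Matrix (Fin d) (Fin d) (ZMod p) :=
    { toFun := fun s => LinearMap.toMatrixAlgEquiv b (A s)
      map_one' := by
        rw [show A 1 = 1 from LinearMap.ext fun x => by simp [A]]
        exact map_one _
      map_mul' := fun s t => by
        rw [show A (s * t) = A s * A t from LinearMap.ext fun x => by simp [A]]
        exact map_mul _ _ _ }
  have hρ : Function.Injective ρ.toHomUnits := by
    intro s t h
    apply hf
    have h1 : A s = A t := (LinearMap.toMatrixAlgEquiv b).injective (congrArg Units.val h)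
    exact MulEquiv.ext fun x => Additive.ofMul.injective (LinearMap.congr_fun h1 (Additive.ofMul x))
  have := Subgroup.card_dvd_of_injective ρ.toHomUnits hρ
  rwa [Matrix.card_GL_field, ZMod.card] at this

/-- automorphism groups of elementary abelian groups embed into the general linear group -/
theorem card_dvd_GL {S N : Type*} [Group S] [Finite S] [CommGroup N] [Finite N] (p d : ℕ) [Fact p.Prime]
    (hexp : ∀ x : N, x ^ p = 1) (hcard : Nat.card N = p ^ d) (f : S →* MulAut N) (hf : Function.Injective f) :
    Nat.card S ∣ ∏ i : Fin d, (p ^ d - p ^ (i : ℕ)) := by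
  have hexp' : ∀ x : Additive N, p • x = 0 := fun x =>
    Additive.toMul.injective (by simpa using hexp x.toMul)
  exact @card_dvd_GL_aux S N _ _ _ _ p d _ (AddCommGroup.zmodModule hexp') hcard f hf

theorem sq_log_bound {L : ℕ} (hL : 4 ≤ L) : 3 * L * (L + 1) + 4 ≤ 4 * 2 ^ L := by
  induction L, hL using Nat.le_induction with
  | base => norm_num
  | succ L hL ih => rw [pow_succ]; nlinarith

theorem three_log_le {n : ℕ} (hn : 9 ≤ n) : 3 * Nat.log 2 n ≤ n := by
  have h : 2 ^ Nat.log 2 n ≤ n := Nat.pow_log_le_self 2 (by omega)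
  by_cases h4 : Nat.log 2 n ≤ 3
  · omega
  · have h3 : ∀ L, 4 ≤ L → 3 * L ≤ 2 ^ L := by
      intro L hL
      induction L, hL using Nat.le_induction with
      | base => norm_num
      | succ L hL ih => rw [pow_succ]; omega
    have := h3 _ (by omega : 4 ≤ Nat.log 2 n)
    omega

theorem cardFactors_fin_prod_le {d : ℕ} (g : Fin d → ℕ) (B : ℕ) (h0 : ∀ i, g i ≠ 0)
    (hB : ∀ i, cardFactors (g i) ≤ B) : cardFactors (∏ i, g i) ≤ d * B := by
  induction d with
  | zero => simp
  | succ d ih =>
    rw [Fin.prod_univ_succ, cardFactors_mul (h0 0) (Finset.prod_ne_zero_iff.mpr fun i _ => h0 _)]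
    have := ih (fun i => g i.succ) (fun i => h0 _) (fun i => hB _)
    have := hB 0
    rw [Nat.succ_mul]; omega

theorem cardFactors_168 : cardFactors 168 = 5 := by
  rw [show (168 : ℕ) = 2 ^ 3 * (3 * 7) by norm_num, cardFactors_mul (by norm_num) (by norm_num),
    cardFactors_mul (by norm_num) (by norm_num), cardFactors_apply_prime_pow Nat.prime_two,
    cardFactors_apply_prime (by norm_num), cardFactors_apply_prime (by norm_num)]

theorem cardFactors_48 : cardFactors 48 = 5 := by
  rw [show (48 : ℕ) = 2 ^ 4 * 3 by norm_num, cardFactors_mul (by norm_num) (by norm_num),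
    cardFactors_apply_prime_pow Nat.prime_two, cardFactors_apply_prime (by norm_num)]

theorem cardFactors_6 : cardFactors 6 = 2 := by
  rw [show (6 : ℕ) = 2 * 3 by norm_num, cardFactors_mul (by norm_num) (by norm_num),
    cardFactors_apply_prime (by norm_num), cardFactors_apply_prime (by norm_num)]

theorem affine_arith {p d m : ℕ} (hp : p.Prime) (hd : 2 ≤ d)
    (h : m ∣ ∏ i : Fin d, (p ^ d - p ^ (i : ℕ))) : 3 * (d + cardFactors m) + 4 ≤ 4 * p ^ d := by
  have h0 : ∀ i : Fin d, p ^ d - p ^ (i : ℕ) ≠ 0 := fun i => by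
    have := Nat.pow_lt_pow_right hp.one_lt i.2
    omega
  have hle := cardFactors_le_of_dvd (Finset.prod_ne_zero_iff.mpr fun i _ => h0 i) h
  by_cases h16 : 16 ≤ p ^ d
  · set L := Nat.log 2 (p ^ d)
    have hL : 4 ≤ L := Nat.le_log_of_pow_le one_lt_two (by simpa using h16)
    have h2L : 2 ^ L ≤ p ^ d := Nat.pow_log_le_self 2 (by omega)
    have hdL : d ≤ L := Nat.le_log_of_pow_le one_lt_two (Nat.pow_le_pow_left hp.two_le d)
    have hB : cardFactors (∏ i : Fin d, (p ^ d - p ^ (i : ℕ))) ≤ d * L :=
      cardFactors_fin_prod_le _ L h0 fun i =>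
        (cardFactors_le_log (h0 i)).trans (Nat.log_mono_right (Nat.sub_le _ _))
    have := sq_log_bound hL
    have h5 : d * L ≤ L * L := Nat.mul_le_mul_right L hdL
    nlinarith
  · have hp3 : p ≤ 3 := by
      by_contra hc
      exact h16 (le_trans (by norm_num : 16 ≤ 4 ^ 2)
        (le_trans (Nat.pow_le_pow_left (by omega) 2) (Nat.pow_le_pow_right hp.pos hd)))
    have hd3 : d ≤ 3 := by
      by_contra hc
      exact h16 (le_trans (by norm_num : 16 ≤ 2 ^ 4)
        (le_trans (Nat.pow_le_pow_left hp.two_le 4) (Nat.pow_le_pow_right hp.pos (by omega))))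
    have := hp.two_le
    interval_cases p <;> interval_cases d <;>
      simp [Fin.prod_univ_succ, cardFactors_6, cardFactors_48, cardFactors_168] at hle h16 ⊢ <;> omega

theorem factor_arith {t m : ℕ} (ht : 6 ≤ t) (hm : 2 ≤ m) : 8 * m * t + 4 ≤ 3 * t ^ m := by
  induction m, hm using Nat.le_induction with
  | base => nlinarith
  | succ m hm ih =>
    rw [pow_succ]
    have h1 : (8 * m * t + 4) * 2 ≤ (8 * m * t + 4) * t := Nat.mul_le_mul_left _ (by omega)
    have h2 : (8 * m * t + 4) * t ≤ 3 * t ^ m * t := Nat.mul_le_mul_right t ih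
    have h3 : 2 * t ≤ m * t := Nat.mul_le_mul_right t hm
    nlinarith

theorem mul_lt_pow_self_of_three_le {a k : ℕ} (ha : 3 ≤ a) (hk : 2 ≤ k) : k * a < a ^ k := by
  induction k, hk using Nat.le_induction with
  | base => nlinarith
  | succ k hk ih =>
    rw [pow_succ]
    have h1 : (k * a + 1) * a ≤ a ^ k * a := Nat.mul_le_mul_right a ih
    have h2 : k * 3 ≤ k * a := Nat.mul_le_mul_left k ha
    have h3 : (k + 2) * a ≤ (k * a + 1) * a := Nat.mul_le_mul_right a (by omega)
    nlinarith

end CfsgLib.CompLength
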