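import Mathlib
import Cfsg.Agent.MinNormal.Structure

/-!
# Orbits of a non-abelian minimal normal subgroup in a group action
-/

set_option autoImplicit false

namespace CfsgLib.CompLength

open MulAction CfsgLib.MinNormal

variable {G Ω : Type*} [Group G] [MulAction G Ω] {N : Subgroup G} {s : Finset (Subgroup G)}

theorem sup_commute (h : IsFactors N s) {T : Subgroup G} (hT : T ∈ s) {U : Finset (Subgroup G)}
    (hU : U ⊆ s) (hTU : T ∉ U) {x y : G} (hx : x ∈ T) (hy : y ∈ U.sup id) : Commute x y := by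
  have : U.sup id ≤ Subgroup.centralizer (T : Set G) :=
    Finset.sup_le fun T' hT' z hz => Subgroup.mem_centralizer_iff.2 fun w hw =>
      h.commute T hT T' (hU hT') (fun e => hTU (e ▸ hT')) w hw z hz
  exact Subgroup.mem_centralizer_iff.1 (this hy) x hx

theorem sup_le_N (h : IsFactors N s) {U : Finset (Subgroup G)} (hU : U ⊆ s) : U.sup id ≤ N :=
  Finset.sup_le fun T hT => h.le T (hU hT)

theorem mem_insert_sup [DecidableEq (Subgroup G)] (h : IsFactors N s) {T : Subgroup G} (hT : T ∈ s)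
    {U : Finset (Subgroup G)} (hU : U ⊆ s) {x : G} (hx : x ∈ (insert T U).sup id) :
    ∃ a ∈ T, ∃ b ∈ U.sup id, x = a * b := by
  rw [Finset.sup_insert] at hx
  have hx' : x ∈ T ⊔ U.sup id := hx
  rw [← SetLike.mem_coe, Subgroup.coe_mul_of_right_le_normalizer_left T _
    ((sup_le_N h hU).trans (h.normalized T hT))] at hx'
  obtain ⟨a, ha, b, hb, e⟩ := hx'
  exact ⟨a, ha, b, hb, e.symm⟩

theorem sup_le_erase [DecidableEq (Subgroup G)] {T : Subgroup G} {U : Finset (Subgroup G)}
    (hU : U ⊆ s) (hTU : T ∉ U) : U.sup id ≤ (s.erase T).sup id :=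
  Finset.sup_mono fun _ hx => Finset.mem_erase.2 ⟨fun e => hTU (e ▸ hx), hU hx⟩

theorem disjoint_sup [DecidableEq (Subgroup G)] (h : IsFactors N s) {T : Subgroup G} (hT : T ∈ s)
    {U : Finset (Subgroup G)} (hU : U ⊆ s) (hTU : T ∉ U) {x : G} (hx : x ∈ T) (hx' : x ∈ U.sup id) :
    x = 1 := by
  have : x ∈ T ⊓ (s.erase T).sup id := ⟨hx, sup_le_erase hU hTU hx'⟩
  rwa [h.inf_sup_erase hT, Subgroup.mem_bot] at this

/-- orbit of a product of factors -/
def orbitOf (α : Ω) (H : Subgroup G) : Set Ω := (fun g : G => g • α) '' (H : Set G)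

theorem orbitOf_insert [DecidableEq (Subgroup G)] [Finite Ω] (h : IsFactors N s) (α : Ω)
    (hK : ∀ T ∈ s, T ⊓ ((N ⊓ stabilizer G α) ⊔ (s.erase T).sup id) ≤ stabilizer G α)
    {T : Subgroup G} (hT : T ∈ s) {U : Finset (Subgroup G)} (hU : U ⊆ s) (hTU : T ∉ U) :
    (orbitOf α T).ncard * (orbitOf α (U.sup id)).ncard ≤ (orbitOf α ((insert T U).sup id)).ncard := by
  rw [← Nat.card_coe_set_eq, ← Nat.card_coe_set_eq, ← Nat.card_coe_set_eq, ← Nat.card_prod]
  have hc : ∀ p : (orbitOf α T) × (orbitOf α (U.sup id)), ∃ q : (orbitOf α ((insert T U).sup id)),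
      ∃ a ∈ T, ∃ b ∈ U.sup id, a • α = p.1.1 ∧ b • α = p.2.1 ∧ (a * b) • α = q.1 := by
    rintro ⟨⟨_, a, ha, rfl⟩, ⟨_, b, hb, rfl⟩⟩
    refine ⟨⟨(a * b) • α, a * b, ?_, rfl⟩, a, ha, b, hb, rfl, rfl, rfl⟩
    rw [Finset.sup_insert]
    exact Subgroup.mul_mem _ (Subgroup.mem_sup_left ha) (Subgroup.mem_sup_right hb)
  choose f hf using hc
  refine Nat.card_le_card_of_injective f fun p q hpq => ?_
  obtain ⟨a, ha, b, hb, ea, eb, eab⟩ := hf p
  obtain ⟨a', ha', b', hb', ea', eb', eab'⟩ := hf q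
  have hst : (a * b)⁻¹ * (a' * b') ∈ N ⊓ stabilizer G α := by
    refine ⟨?_, ?_⟩
    · have h1 := h.le T hT
      have h2 := sup_le_N h hU
      exact N.mul_mem (N.inv_mem (N.mul_mem (h1 ha) (h2 hb))) (N.mul_mem (h1 ha') (h2 hb'))
    · show ((a * b)⁻¹ * (a' * b')) • α = α
      rw [mul_smul, eab', ← hpq, ← eab, inv_smul_smul]
  have hc1 : (a * b)⁻¹ * (a' * b') = (a⁻¹ * a') * (b⁻¹ * b') := by
    have hcm : Commute (a⁻¹ * a') b⁻¹ :=
      sup_commute h hT hU hTU (T.mul_mem (T.inv_mem ha) ha') ((U.sup id).inv_mem hb)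
    calc (a * b)⁻¹ * (a' * b') = b⁻¹ * (a⁻¹ * a') * b' := by group
      _ = (a⁻¹ * a') * b⁻¹ * b' := by rw [hcm.eq]
      _ = _ := by group
  rw [hc1] at hst
  have h3 : a⁻¹ * a' ∈ stabilizer G α := by
    refine hK T hT ⟨T.mul_mem (T.inv_mem ha) ha', ?_⟩
    have h4 : b⁻¹ * b' ∈ (s.erase T).sup id :=
      sup_le_erase hU hTU ((U.sup id).mul_mem ((U.sup id).inv_mem hb) hb')
    have := Subgroup.mul_mem ((N ⊓ stabilizer G α) ⊔ (s.erase T).sup id) (Subgroup.mem_sup_left hst)
      (Subgroup.mem_sup_right (Subgroup.inv_mem _ h4))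
    rwa [mul_inv_cancel_right] at this
  have h5 : b⁻¹ * b' ∈ stabilizer G α := by
    have := (stabilizer G α).mul_mem ((stabilizer G α).inv_mem h3) hst.2
    rwa [inv_mul_cancel_left] at this
  have e1 : a' • α = a • α := by
    have : (a⁻¹ * a') • α = α := h3
    rwa [mul_smul, inv_smul_eq_iff] at this
  have e2 : b' • α = b • α := by
    have : (b⁻¹ * b') • α = α := h5
    rwa [mul_smul, inv_smul_eq_iff] at this
  exact Prod.ext (Subtype.ext (by rw [← ea, ← ea', e1])) (Subtype.ext (by rw [← eb, ← eb', e2]))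

theorem pow_le_orbitOf_sup [DecidableEq (Subgroup G)] [Finite Ω] (h : IsFactors N s) (α : Ω)
    (hK : ∀ T ∈ s, T ⊓ ((N ⊓ stabilizer G α) ⊔ (s.erase T).sup id) ≤ stabilizer G α)
    (a : ℕ) (ha : ∀ T ∈ s, a ≤ (orbitOf α T).ncard) :
    ∀ U : Finset (Subgroup G), U ⊆ s → a ^ U.card ≤ (orbitOf α (U.sup id)).ncard := by
  intro U
  induction U using Finset.induction with
  | empty =>
    intro _
    have : (orbitOf α ((∅ : Finset (Subgroup G)).sup id)).Nonempty := ⟨α, 1, Subgroup.one_mem _, one_smul _ _⟩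
    simpa [Nat.one_le_iff_ne_zero, Nat.pos_iff_ne_zero] using this.ncard_pos
  | insert T U hTU ih =>
    intro hU
    rw [Finset.insert_subset_iff] at hU
    rw [Finset.card_insert_of_notMem hTU, pow_succ']
    exact le_trans (Nat.mul_le_mul (ha T hU.1) (ih hU.2)) (orbitOf_insert h α hK hU.1 hU.2 hTU)

theorem pow_le_card_sup [DecidableEq (Subgroup G)] [Finite G] (h : IsFactors N s) (t : ℕ)
    (ht : ∀ T ∈ s, t ≤ Nat.card T) :
    ∀ U : Finset (Subgroup G), U ⊆ s → t ^ U.card ≤ Nat.card ↥(U.sup id) := by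
  intro U
  induction U using Finset.induction with
  | empty => intro _; simpa using Nat.one_le_iff_ne_zero.mpr Nat.card_pos.ne'
  | insert T U hTU ih =>
    intro hU
    rw [Finset.insert_subset_iff] at hU
    rw [Finset.card_insert_of_notMem hTU, pow_succ']
    refine le_trans (Nat.mul_le_mul (ht T hU.1) (ih hU.2)) ?_
    rw [← Nat.card_prod]
    refine Nat.card_le_card_of_injective (fun p : T × ↥(U.sup id) => (⟨p.1.1 * p.2.1, by
      rw [Finset.sup_insert]
      exact Subgroup.mul_mem _ (Subgroup.mem_sup_left p.1.2) (Subgroup.mem_sup_right p.2.2)⟩ :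
      ↥((insert T U).sup id))) fun p q hpq => ?_
    have he : p.1.1 * p.2.1 = q.1.1 * q.2.1 := congrArg Subtype.val hpq
    have h1 : q.1.1⁻¹ * p.1.1 = q.2.1 * p.2.1⁻¹ := by
      calc q.1.1⁻¹ * p.1.1 = q.1.1⁻¹ * (p.1.1 * p.2.1) * p.2.1⁻¹ := by group
        _ = _ := by rw [he]; group
    have h2 := disjoint_sup h hU.1 hU.2 hTU (T.mul_mem (T.inv_mem q.1.2) p.1.2)
      (h1 ▸ (U.sup id).mul_mem q.2.2 ((U.sup id).inv_mem p.2.2))
    have h3 : q.1.1 = p.1.1 := inv_mul_eq_one.mp h2
    rw [h3] at he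
    exact Prod.ext (Subtype.ext h3.symm) (Subtype.ext (mul_left_cancel he))

/-- an element of `N` with all components in a subgroup -/
theorem le_sup_components [DecidableEq (Subgroup G)] (h : IsFactors N s) (D : Subgroup G) :
    ∀ U : Finset (Subgroup G), U ⊆ s → ∀ x ∈ U.sup id, (∀ T ∈ U, x ∈ D ⊔ (s.erase T).sup id) →
      x ∈ s.sup fun T => T ⊓ (D ⊔ (s.erase T).sup id) := by
  intro U
  induction U using Finset.induction with
  | empty =>
    intro _ x hx _
    rw [Finset.sup_empty, Subgroup.mem_bot] at hx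
    exact hx ▸ Subgroup.one_mem _
  | insert T U hTU ih =>
    intro hU x hx hall
    rw [Finset.insert_subset_iff] at hU
    obtain ⟨a, ha, b, hb, rfl⟩ := mem_insert_sup h hU.1 hU.2 hx
    refine Subgroup.mul_mem _ ?_ ?_
    · apply Finset.le_sup (f := fun T => T ⊓ (D ⊔ (s.erase T).sup id)) hU.1
      refine ⟨ha, ?_⟩
      have := Subgroup.mul_mem (D ⊔ (s.erase T).sup id) (hall T (Finset.mem_insert_self _ _))
        (Subgroup.inv_mem _ (Subgroup.mem_sup_right (sup_le_erase hU.2 hTU hb)))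
      rwa [mul_inv_cancel_right] at this
    · refine ih hU.2 b hb fun T' hT' => ?_
      have ha' : a ∈ D ⊔ (s.erase T').sup id := Subgroup.mem_sup_right
        (Finset.le_sup (f := id) (Finset.mem_erase.2 ⟨fun e => hTU (by rwa [e]), hU.1⟩) ha)
      have := Subgroup.mul_mem _ (Subgroup.inv_mem _ ha') (hall T' (Finset.mem_insert_of_mem hT'))
      rwa [inv_mul_cancel_left] at this

theorem inf_sup_inter [DecidableEq (Subgroup G)] (h : IsFactors N s) {U V : Finset (Subgroup G)}
    (hU : U ⊆ s) (hV : V ⊆ s) : U.sup id ⊓ V.sup id ≤ (U ∩ V).sup id := by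
  have hn : ∀ {W : Finset (Subgroup G)}, W ⊆ s → N ≤ Subgroup.normalizer ((W.sup id : Subgroup G) : Set G) := by
    intro W hW
    induction W using Finset.induction with
    | empty =>
      rw [Finset.sup_empty, Subgroup.normalizer_eq_top_iff.mpr (inferInstance : (⊥ : Subgroup G).Normal)]
      exact le_top
    | insert T W _ ih =>
      rw [Finset.insert_subset_iff] at hW
      rw [Finset.sup_insert]
      refine le_trans (le_inf (h.normalized T hW.1) (ih hW.2)) ?_
      exact (Subgroup.normalizer_inf_normalizer_le_normalizer_sup _ _)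
  obtain ⟨t, ht, e⟩ := h.eq_sup (U.sup id ⊓ V.sup id) (inf_le_left.trans (sup_le_N h hU))
    ((le_inf (hn hU) (hn hV)).trans Subgroup.inf_normalizer_le_normalizer_inf)
  rw [e]
  refine Finset.sup_mono fun T hT => ?_
  have hle : T ≤ U.sup id ⊓ V.sup id := e.symm ▸ Finset.le_sup (f := id) hT
  have hne : T ≠ ⊥ := fun e' => h.not_comm T (ht hT) (e' ▸ ⟨⟨fun x y => Subsingleton.elim _ _⟩⟩)
  refine Finset.mem_inter.2 ⟨?_, ?_⟩ <;> by_contra hc
  · exact hne ((Subgroup.eq_bot_iff_forall _).2 fun x hx => disjoint_sup h (ht hT) hU hc hx (hle hx).1)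
  · exact hne ((Subgroup.eq_bot_iff_forall _).2 fun x hx => disjoint_sup h (ht hT) hV hc hx (hle hx).2)

theorem sup_normalized [DecidableEq (Subgroup G)] (h : IsFactors N s) {W : Finset (Subgroup G)}
    (hW : W ⊆ s) : N ≤ Subgroup.normalizer ((W.sup id : Subgroup G) : Set G) := by
  induction W using Finset.induction with
  | empty =>
    rw [Finset.sup_empty, Subgroup.normalizer_eq_top_iff.mpr (inferInstance : (⊥ : Subgroup G).Normal)]
    exact le_top
  | insert T W _ ih =>
    rw [Finset.insert_subset_iff] at hW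
    rw [Finset.sup_insert]
    exact le_trans (le_inf (h.normalized T hW.1) (ih hW.2))
      (Subgroup.normalizer_inf_normalizer_le_normalizer_sup _ _)

/-- The subdirect case: at least half of the factors avoid `D`. -/
theorem exists_half [DecidableEq (Subgroup G)] (h : IsFactors N s) (D : Subgroup G) (hDN : D ≤ N)
    (hsurj : ∀ T ∈ s, N ≤ D ⊔ (s.erase T).sup id) (hnot : ∀ T ∈ s, ¬ T ≤ D) :
    ∃ U, U ⊆ s ∧ s.card ≤ 2 * U.card ∧ D ⊓ U.sup id = ⊥ := by
  classical
  obtain ⟨U, hUm, hmax⟩ := Finset.exists_max_image (s.powerset.filter fun U => D ⊓ U.sup id = ⊥)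
    Finset.card ⟨∅, Finset.mem_filter.2 ⟨Finset.empty_mem_powerset s, by simp⟩⟩
  rw [Finset.mem_filter, Finset.mem_powerset] at hUm
  obtain ⟨hU, hUd⟩ := hUm
  -- minimal supports
  let Sup' : Finset (Subgroup G) → Prop := fun V => V ⊆ s ∧ D ⊓ V.sup id ≠ ⊥ ∧
    ∀ V' ⊂ V, D ⊓ V'.sup id = ⊥
  -- a support projects onto each of its members
  have hproj : ∀ V, Sup' V → ∀ T ∈ V, N ≤ (D ⊓ V.sup id) ⊔ (s.erase T).sup id := by
    intro V hV T hT
    set M := D ⊓ V.sup id
    set C := (s.erase T).sup id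
    have hTs := hV.1 hT
    have hCN : C ≤ N := h.sup_erase_le T
    have hMN : M ≤ N := inf_le_left.trans hDN
    have hn : N ≤ Subgroup.normalizer ((M ⊔ C : Subgroup G) : Set G) := by
      refine le_trans (hsurj T hTs) (sup_le ?_ ?_)
      · refine le_trans (le_inf ?_ ?_) (Subgroup.normalizer_inf_normalizer_le_normalizer_sup _ _)
        · exact le_trans (le_inf Subgroup.le_normalizer (hDN.trans (sup_normalized h hV.1)))
            Subgroup.inf_normalizer_le_normalizer_inf
        · exact hDN.trans (sup_normalized h (Finset.erase_subset T s))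
      · exact le_trans le_sup_right Subgroup.le_normalizer
    obtain ⟨t, ht, e⟩ := h.eq_sup (M ⊔ C) (sup_le hMN hCN) hn
    by_cases hTt : T ∈ t
    · rw [← h.sup_eq, e]
      refine Finset.sup_le fun T' hT' => ?_
      by_cases eT : T' = T
      · exact eT ▸ Finset.le_sup (f := id) hTt
      · rw [← e]; exact le_sup_of_le_right (Finset.le_sup (f := id) (Finset.mem_erase.2 ⟨eT, hT'⟩))
    · exfalso
      have hMC : M ≤ C := le_trans le_sup_left (e ▸ sup_le_erase ht hTt)
      have hle : M ≤ D ⊓ (V.erase T).sup id := by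
        refine le_inf inf_le_left fun x hx => ?_
        have := inf_sup_inter h hV.1 (Finset.erase_subset T s) ⟨hx.2, hMC hx⟩
        have hsub : V ∩ s.erase T ⊆ V.erase T := fun y hy => Finset.mem_erase.2
          ⟨(Finset.mem_erase.1 (Finset.mem_inter.1 hy).2).1, (Finset.mem_inter.1 hy).1⟩
        exact (Finset.sup_mono (f := id) hsub : (V ∩ s.erase T).sup id ≤ (V.erase T).sup id) this
      exact hV.2.1 (le_bot_iff.1 (hle.trans (hV.2.2 _ (Finset.erase_ssubset hT)).le))
  -- two supports with a common member coincide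
  have hdisj : ∀ V W, Sup' V → Sup' W → ∀ T ∈ V, T ∈ W → V = W := by
    intro V W hV hW T hTV hTW
    by_contra hne
    have hss : V ∩ W ⊂ V ∨ V ∩ W ⊂ W := by
      by_contra hc
      push Not at hc
      have h1 : V ∩ W = V := by
        by_contra e; exact hc.1 (lt_of_le_of_ne Finset.inter_subset_left e)
      have h2 : V ∩ W = W := by
        by_contra e; exact hc.2 (lt_of_le_of_ne Finset.inter_subset_right e)
      exact hne (h1.symm.trans h2)
    have hb : D ⊓ (V ∩ W).sup id = ⊥ := hss.elim (hV.2.2 _) (hW.2.2 _)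
    have hcomm : ∀ v ∈ D ⊓ V.sup id, ∀ w ∈ D ⊓ W.sup id, Commute v w := by
      intro v hv w hw
      have hnV : w ∈ Subgroup.normalizer ((D ⊓ V.sup id : Subgroup G) : Set G) :=
        le_trans (le_inf Subgroup.le_normalizer (hDN.trans (sup_normalized h hV.1)))
          Subgroup.inf_normalizer_le_normalizer_inf hw.1
      have hnW : v ∈ Subgroup.normalizer ((D ⊓ W.sup id : Subgroup G) : Set G) :=
        le_trans (le_inf Subgroup.le_normalizer (hDN.trans (sup_normalized h hW.1)))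
          Subgroup.inf_normalizer_le_normalizer_inf hv.1
      have h1 : v * w * v⁻¹ * w⁻¹ ∈ D ⊓ V.sup id := by
        have := Subgroup.mul_mem _ hv ((Subgroup.mem_normalizer_iff.1 hnV _).1 (Subgroup.inv_mem _ hv))
        simpa [mul_assoc] using this
      have h2 : v * w * v⁻¹ * w⁻¹ ∈ D ⊓ W.sup id :=
        Subgroup.mul_mem _ ((Subgroup.mem_normalizer_iff.1 hnW _).1 hw) (Subgroup.inv_mem _ hw)
      have h3 : v * w * v⁻¹ * w⁻¹ ∈ D ⊓ (V ∩ W).sup id := ⟨h1.1, inf_sup_inter h hV.1 hW.1 ⟨h1.2, h2.2⟩⟩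
      rw [hb, Subgroup.mem_bot] at h3
      exact commutatorElement_eq_one_iff_commute.1 h3
    have hTs := hV.1 hTV
    refine h.not_comm T hTs ⟨⟨fun a b => Subtype.ext ?_⟩⟩
    have dec : ∀ (V : Finset (Subgroup G)), Sup' V → T ∈ V → ∀ a ∈ T,
        ∃ v ∈ D ⊓ V.sup id, ∃ c ∈ (s.erase T).sup id, a = v * c := by
      intro V hV hTV a ha
      have h' := hproj V hV T hTV (h.le T hTs ha)
      rw [← SetLike.mem_coe, Subgroup.coe_mul_of_left_le_normalizer_right _ _
        ((inf_le_left.trans hDN).trans (sup_normalized h (Finset.erase_subset T s)))] at h'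
      obtain ⟨v, hv, c, hc, e⟩ := h'
      exact ⟨v, hv, c, hc, e.symm⟩
    obtain ⟨v, hv, c, hc, ea⟩ := dec V hV hTV a a.2
    obtain ⟨w, hw, c', hc', eb⟩ := dec W hW hTW b b.2
    show (a : G) * b = b * a
    have hx : ((a : G) * b) * ((b : G) * a)⁻¹ ∈ T ⊓ (s.erase T).sup id := by
      refine ⟨T.mul_mem (T.mul_mem a.2 b.2) (T.inv_mem (T.mul_mem b.2 a.2)), ?_⟩
      have hav : v = (a : G) * c⁻¹ := by rw [ea, mul_inv_cancel_right]
      have hbw : w = (b : G) * c'⁻¹ := by rw [eb, mul_inv_cancel_right]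
      have k : ∀ {x : G}, x ∈ T → ∀ {y : G}, y ∈ (s.erase T).sup id → Commute x y :=
        fun hx _ hy => sup_commute h hTs (Finset.erase_subset T s) (Finset.notMem_erase T s) hx hy
      have e1 := (hcomm v hv w hw).eq
      rw [hav, hbw] at e1
      have p1 : (a : G) * c⁻¹ * ((b : G) * c'⁻¹) = a * b * (c⁻¹ * c'⁻¹) := by
        rw [mul_assoc (a : G), ← mul_assoc c⁻¹, ← (k b.2 (Subgroup.inv_mem _ hc)).eq]; group
      have p2 : (b : G) * c'⁻¹ * ((a : G) * c⁻¹) = b * a * (c'⁻¹ * c⁻¹) := by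
        rw [mul_assoc (b : G), ← mul_assoc c'⁻¹, ← (k a.2 (Subgroup.inv_mem _ hc')).eq]; group
      rw [p1, p2] at e1
      have e2 : (a : G) * b = b * a * ((c'⁻¹ * c⁻¹) * (c⁻¹ * c'⁻¹)⁻¹) := by
        rw [← mul_assoc, ← e1, mul_inv_cancel_right]
      have hd : (c'⁻¹ * c⁻¹) * (c⁻¹ * c'⁻¹)⁻¹ ∈ (s.erase T).sup id := by
        have i1 := Subgroup.inv_mem _ hc
        have i2 := Subgroup.inv_mem _ hc'
        exact Subgroup.mul_mem _ (Subgroup.mul_mem _ i2 i1) (Subgroup.inv_mem _ (Subgroup.mul_mem _ i1 i2))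
      rw [e2, (k (T.mul_mem b.2 a.2) hd).eq, mul_inv_cancel_right]
      exact hd
    rw [h.inf_sup_erase hTs, Subgroup.mem_bot] at hx
    exact mul_inv_eq_one.1 hx
  -- each further factor has its own support
  have hsupp : ∀ j ∈ s \ U, ∃ V, Sup' V ∧ j ∈ V ∧ V ⊆ insert j U ∧ ∃ u ∈ V, u ≠ j ∧ u ∈ U := by
    intro j hj
    obtain ⟨hjs, hjU⟩ := Finset.mem_sdiff.1 hj
    have hne : D ⊓ (insert j U).sup id ≠ ⊥ := fun e => by
      have := hmax (insert j U) (Finset.mem_filter.2
        ⟨Finset.mem_powerset.2 (Finset.insert_subset hjs hU), e⟩)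
      rw [Finset.card_insert_of_notMem hjU] at this
      omega
    obtain ⟨V, hVle, hV⟩ := Finite.exists_le_minimal
      (p := fun V : {V : Finset (Subgroup G) // V ⊆ insert j U} => D ⊓ V.1.sup id ≠ ⊥)
      (a := ⟨insert j U, subset_rfl⟩) hne
    have hS : Sup' V.1 := by
      refine ⟨V.2.trans (Finset.insert_subset hjs hU), hV.1, fun V' hV' => ?_⟩
      by_contra hc
      exact hV'.not_ge (hV.2 (y := ⟨V', hV'.le.trans V.2⟩) hc hV'.le)
    have hjV : j ∈ V.1 := by
      by_contra hc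
      refine hV.1 (le_bot_iff.1 (le_trans (inf_le_inf_left D (Finset.sup_mono fun x hx => ?_)) hUd.le))
      exact (Finset.mem_insert.1 (V.2 hx)).resolve_left fun e => hc (e ▸ hx)
    refine ⟨V.1, hS, hjV, V.2, ?_⟩
    by_contra hc
    push Not at hc
    have hVj : V.1 = {j} := by
      ext x
      rw [Finset.mem_singleton]
      refine ⟨fun hx => ?_, fun e => e ▸ hjV⟩
      by_contra hx'
      exact hc x hx hx' ((Finset.mem_insert.1 (V.2 hx)).resolve_left hx')
    have h1 : D ⊓ V.1.sup id ≠ ⊥ := hV.1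
    rw [hVj, Finset.sup_singleton] at h1
    refine hnot j hjs ?_
    have hn : N ≤ Subgroup.normalizer ((D ⊓ id j : Subgroup G) : Set G) := by
      refine le_trans (hsurj j hjs) (sup_le ?_ ?_)
      · exact le_trans (le_inf Subgroup.le_normalizer (hDN.trans (h.normalized j hjs)))
          Subgroup.inf_normalizer_le_normalizer_inf
      · intro c hc'
        refine Subgroup.centralizer_le_normalizer _ (Subgroup.mem_centralizer_iff.2 fun x hx => ?_)
        exact (sup_commute h hjs (Finset.erase_subset j s) (Finset.notMem_erase j s) hx.2 hc').eq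
    have := h.eq_of_normalized_le hjs (inf_le_right : D ⊓ id j ≤ j) h1 ((h.le j hjs).trans hn)
    exact inf_eq_right.1 this
  choose Vf hVf hjV hVU uf huV huj huU using hsupp
  refine ⟨U, hU, ?_, hUd⟩
  have hle : (s \ U).card ≤ U.card := by
    apply Finset.card_le_card_of_injOn (fun j => if hj : j ∈ s \ U then uf j hj else j)
    · intro j hj
      have hj' : j ∈ s \ U := hj
      simp only [dif_pos hj']
      exact huU j hj'
    · intro i hi j hj e
      have hi' : i ∈ s \ U := hi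
      have hj' : j ∈ s \ U := hj
      simp only [dif_pos hi', dif_pos hj'] at e
      have := hdisj _ _ (hVf i hi') (hVf j hj') _ (huV i hi') (e ▸ huV j hj')
      rcases Finset.mem_insert.1 (hVU j hj' (this ▸ hjV i hi')) with h' | h'
      · exact h'
      · exact absurd h' (Finset.mem_sdiff.1 hi').2
  rw [Finset.card_sdiff_of_subset hU] at hle
  omega

end CfsgLib.CompLength
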