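import Mathlib
import Cfsg.Agent.MinNormal.Structure
import Cfsg.Agent.CompLength.Basic
import Cfsg.Agent.CompLength.Affine
import Cfsg.Agent.CompLength.Factors

/-!
# Composition length of permutation groups is at most 4(n - r)/3
-/

set_option autoImplicit false

namespace CfsgLib.CompLength

open MulAction CfsgLib.MinNormal

/-- the bound at degree `n` -/
def Bnd (n : ℕ) : Prop :=
  ∀ (G Ω : Type) [Group G] [Finite G] [MulAction G Ω] [FaithfulSMul G Ω] [Finite Ω],
    Nat.card Ω = n → 3 * compLen G + 4 * Nat.card (orbitRel.Quotient G Ω) ≤ 4 * n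

theorem faithful_of_fix {G Ω : Type*} [Group G] [MulAction G Ω]
    (h : ∀ g : G, (∀ x : Ω, g • x = x) → g = 1) : FaithfulSMul G Ω :=
  ⟨fun {a b} hab => inv_mul_eq_one.1 (h (b⁻¹ * a) fun x => by
    rw [mul_smul, hab, inv_smul_smul]) |>.symm⟩

theorem eq_one_of_fix {G Ω : Type*} [Group G] [MulAction G Ω] [FaithfulSMul G Ω] {g : G}
    (h : ∀ x : Ω, g • x = x) : g = 1 :=
  FaithfulSMul.eq_of_smul_eq_smul (α := Ω) fun x => by rw [h, one_smul]

theorem image_bound {n : ℕ} (IH : ∀ m < n, Bnd m) (G : Type) [Group G] [Finite G] (Y : Type)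
    [MulAction G Y] [Finite Y] [Nonempty Y] (hY : Nat.card Y < n) :
    3 * compLen G + 4 ≤ 3 * compLen (toPermHom G Y).ker + 4 * Nat.card Y := by
  have hsub := compLen_le_ker_add (toPermHom G Y).rangeRestrict (MonoidHom.rangeRestrict_surjective _)
  rw [MonoidHom.ker_rangeRestrict] at hsub
  have : FaithfulSMul (toPermHom G Y).range Y :=
    faithful_of_fix fun g hg => Subtype.ext (Equiv.ext fun x => hg x)
  have h := IH _ hY (toPermHom G Y).range Y rfl
  have : 0 < Nat.card (orbitRel.Quotient (toPermHom G Y).range Y) :=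
    Nat.card_pos_iff.2 ⟨⟨Quotient.mk'' (Classical.arbitrary Y)⟩, inferInstance⟩
  omega

theorem intransitive_bound {n : ℕ} (IH : ∀ m < n, Bnd m) (G Ω : Type) [Group G] [Finite G]
    [MulAction G Ω] [FaithfulSMul G Ω] [Finite Ω] (hn : Nat.card Ω = n)
    (hr : 2 ≤ Nat.card (orbitRel.Quotient G Ω)) :
    3 * compLen G + 4 * Nat.card (orbitRel.Quotient G Ω) ≤ 4 * n := by
  classical
  have hne : Nonempty (orbitRel.Quotient G Ω) := (Nat.card_pos_iff.1 (by omega)).1
  obtain ⟨q⟩ := hne
  obtain ⟨x, -⟩ := Quotient.exists_rep q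
  let O : Set Ω := orbit G x
  let R : SubMulAction G Ω :=
    { carrier := Oᶜ
      smul_mem' := fun g y hy hgy => hy (by
        have := mem_orbit_iff.1 hgy
        obtain ⟨h, hh⟩ := this
        exact mem_orbit_iff.2 ⟨g⁻¹ * h, by rw [mul_smul, hh, inv_smul_smul]⟩) }
  have hsum : Nat.card O + Nat.card R = n := by
    rw [← hn, ← Nat.card_sum]
    exact Nat.card_congr (Equiv.Set.sumCompl O)
  have hO : 0 < Nat.card O := Nat.card_pos_iff.2 ⟨⟨⟨x, mem_orbit_self x⟩⟩, inferInstance⟩
  have hR : 0 < Nat.card R := by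
    rw [Nat.card_pos_iff]
    refine ⟨?_, Subtype.finite⟩
    by_contra hc
    have h1 : Nat.card (orbitRel.Quotient G Ω) ≤ 1 := by
      rw [Finite.card_le_one_iff_subsingleton]
      refine ⟨fun a b => ?_⟩
      induction a using Quotient.inductionOn' with
      | h a =>
        induction b using Quotient.inductionOn' with
        | h b =>
          have hab : ∀ y, y ∈ orbit G x := fun y => by_contra fun hy => hc ⟨⟨y, hy⟩⟩
          apply Quotient.sound'
          show a ∈ orbit G b
          rw [orbit_eq_iff.2 (hab b)]; exact hab a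
    omega
  have : Nonempty O := ⟨⟨x, mem_orbit_self x⟩⟩
  have h1 := image_bound IH G O (by omega)
  set K := (toPermHom G (orbit G x)).ker
  have : FaithfulSMul K R := faithful_of_fix fun k hk => Subtype.ext (eq_one_of_fix (Ω := Ω) fun y => by
    by_cases hy : y ∈ orbit G x
    · have := Equiv.ext_iff.1 (MonoidHom.mem_ker.1 k.2) ⟨y, hy⟩
      exact congrArg Subtype.val this
    · exact congrArg Subtype.val (hk ⟨y, hy⟩))
  have : Finite R := Subtype.finite
  have h2 := IH (Nat.card R) (by omega) K R rfl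
  have h3 : Nat.card (orbitRel.Quotient G Ω) ≤ Nat.card (orbitRel.Quotient K R) + 1 := by
    rw [← Finite.card_option]
    let φ : Option (orbitRel.Quotient K R) → orbitRel.Quotient G Ω := fun o =>
      o.elim (Quotient.mk'' x) (Quotient.lift (fun y : R => Quotient.mk'' (y : Ω)) (by
        intro a b hab
        obtain ⟨k, hk⟩ := mem_orbit_iff.1 hab
        exact Quotient.sound' (mem_orbit_iff.2 ⟨(k : G), congrArg Subtype.val hk⟩)))
    refine Nat.card_le_card_of_surjective φ fun c => ?_
    induction c using Quotient.inductionOn' with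
    | h y =>
      by_cases hy : y ∈ orbit G x
      · exact ⟨none, Quotient.sound' (mem_orbit_symm.1 hy)⟩
      · exact ⟨some (Quotient.mk'' ⟨y, hy⟩), rfl⟩
  omega

theorem imprimitive_bound {n : ℕ} (IH : ∀ m < n, Bnd m) (G Ω : Type) [Group G] [Finite G]
    [MulAction G Ω] [FaithfulSMul G Ω] [Finite Ω] (hn : Nat.card Ω = n)
    [htr : IsPretransitive G Ω] (α : Ω) (H : Subgroup G) (h1 : stabilizer G α < H) (h2 : H < ⊤) :
    3 * compLen G + 4 ≤ 4 * n := by
  have hidx : Nat.card (G ⧸ H) < n := by
    have h3 := Subgroup.relIndex_mul_index h1.le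
    rw [index_stabilizer_of_transitive, hn] at h3
    have h4 : (stabilizer G α).relIndex H ≠ 1 := fun e => h1.not_ge (Subgroup.relIndex_eq_one.1 e)
    have h5 : (stabilizer G α).relIndex H ≠ 0 := fun e => by
      rw [e, zero_mul] at h3
      have : Nonempty Ω := ⟨α⟩
      have : 0 < Nat.card Ω := Nat.card_pos
      omega
    have h6 : 0 < H.index := Nat.pos_of_ne_zero Subgroup.index_ne_zero_of_finite
    rw [← Subgroup.index_eq_card]
    nlinarith [Nat.lt_of_le_of_ne (Nat.one_le_iff_ne_zero.2 h5) (Ne.symm h4)]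
  have hge : 2 ≤ Nat.card (G ⧸ H) := by
    rw [← Subgroup.index_eq_card]
    have : H.index ≠ 1 := fun e => h2.ne (Subgroup.index_eq_one.1 e)
    have : H.index ≠ 0 := Subgroup.index_ne_zero_of_finite
    omega
  have hb := image_bound IH G (G ⧸ H) hidx
  set K := (toPermHom G (G ⧸ H)).ker
  have : FaithfulSMul K Ω := faithful_of_fix fun k hk => Subtype.ext (eq_one_of_fix hk)
  choose gm hgm using fun y : Ω => htr.exists_smul_eq α y
  have hwd : ∀ (g : G) (y : Ω), g • α = y → (QuotientGroup.mk (gm y) : G ⧸ H) = QuotientGroup.mk g := by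
    intro g y hg
    rw [QuotientGroup.eq]
    apply h1.le
    show ((gm y)⁻¹ * g) • α = α
    rw [mul_smul, hg]
    exact inv_smul_eq_iff.2 (hgm y).symm
  have hsur : Nat.card (G ⧸ H) ≤ Nat.card (orbitRel.Quotient K Ω) := by
    refine Nat.card_le_card_of_surjective
      (Quotient.lift (fun y : Ω => (QuotientGroup.mk (gm y) : G ⧸ H)) ?_) fun c => ?_
    · intro a b hab
      obtain ⟨k, hk⟩ := mem_orbit_iff.1 hab
      show (QuotientGroup.mk (gm a) : G ⧸ H) = QuotientGroup.mk (gm b)
      rw [hwd ((k : G) * gm b) a (by rw [mul_smul, hgm]; exact hk)]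
      exact Equiv.ext_iff.1 (MonoidHom.mem_ker.1 k.2) (QuotientGroup.mk (gm b))
    · obtain ⟨g, rfl⟩ := QuotientGroup.mk_surjective c
      exact ⟨Quotient.mk'' (g • α), hwd g _ rfl⟩
  have h3 := intransitive_bound IH K Ω hn (le_trans hge hsur)
  omega

theorem six_le_card {T : Type*} [Group T] [Finite T] [IsSimpleGroup T] (h : ¬ IsMulCommutative T) :
    6 ≤ Nat.card T := by
  by_contra hc
  have h2 : 1 < Nat.card T := Finite.one_lt_card
  rcases (show Nat.card T = 4 ∨ (Nat.card T).Prime by
    have : Nat.card T < 6 := not_le.1 hc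
    interval_cases hh : Nat.card T <;> norm_num) with h4 | hp
  · refine h ⟨⟨fun a b => ?_⟩⟩
    have := Fact.mk Nat.prime_two
    exact IsPGroup.commutative_of_card_eq_prime_sq (p := 2) (by rw [h4]; norm_num) a b
  · have := Fact.mk hp
    have := isCyclic_of_prime_card (α := T) rfl
    let _ := IsCyclic.commGroup (α := T)
    exact h ⟨⟨fun a b => mul_comm a b⟩⟩

section Primitive

variable {G Ω : Type} [Group G] [Finite G] [MulAction G Ω] [FaithfulSMul G Ω] [Finite Ω]

theorem compLen_le_two_of_two_factors {N : Subgroup G} {s : Finset (Subgroup G)} (h : IsFactors N s)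
    (hk : s.card ≤ 2) : compLen N ≤ 2 := by
  classical
  obtain ⟨T, hT⟩ := h.nonempty
  have hTn : (T.subgroupOf N).Normal :=
    (Subgroup.normal_subgroupOf_iff_le_normalizer (h.le T hT)).2 (h.normalized T hT)
  have h1 := compLen_le_ker_add (QuotientGroup.mk' (T.subgroupOf N)) (QuotientGroup.mk'_surjective _)
  rw [QuotientGroup.ker_mk'] at h1
  have := h.simple T hT
  have h2 : compLen ↥(T.subgroupOf N) ≤ 1 := by
    rw [compLen_congr (Subgroup.subgroupOfEquivOfLe (h.le T hT))]; exact compLen_le_one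
  have h3 : compLen (N ⧸ T.subgroupOf N) ≤ 1 := by
    by_cases he : (s.erase T).sup id = ⊥
    · have hsub : Subsingleton (N ⧸ T.subgroupOf N) := by
        refine subsingleton_of_forall_eq 1 fun y => ?_
        obtain ⟨⟨z, hz⟩, rfl⟩ := QuotientGroup.mk_surjective y
        rw [QuotientGroup.eq_one_iff]
        obtain ⟨a, ha, b, hb, e⟩ := h.exists_mul hT hz
        rw [he, Subgroup.mem_bot] at hb
        show z ∈ T
        rw [e, hb, mul_one]; exact ha
      rw [compLen_of_subsingleton]; exact zero_le_one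
    · obtain ⟨T', hT'⟩ : (s.erase T).Nonempty := by
        rw [Finset.nonempty_iff_ne_empty]; intro e; rw [e, Finset.sup_empty] at he; exact he rfl
      have hs' : s.erase T = {T'} := by
        refine (Finset.eq_of_subset_of_card_le (Finset.singleton_subset_iff.2 hT') ?_).symm
        rw [Finset.card_erase_of_mem hT, Finset.card_singleton]; omega
      have := h.simple T' (Finset.mem_of_mem_erase hT')
      let f : T' →* N ⧸ T.subgroupOf N :=
        (QuotientGroup.mk' _).comp (Subgroup.inclusion (h.le T' (Finset.mem_of_mem_erase hT')))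
      have hf : Function.Surjective f := by
        intro y
        obtain ⟨⟨z, hz⟩, rfl⟩ := QuotientGroup.mk_surjective y
        obtain ⟨a, ha, b, hb, e⟩ := h.exists_mul hT hz
        rw [hs', Finset.sup_singleton] at hb
        refine ⟨⟨b, hb⟩, ?_⟩
        show (QuotientGroup.mk _ : N ⧸ T.subgroupOf N) = QuotientGroup.mk _
        rw [QuotientGroup.eq]
        show b⁻¹ * z ∈ T
        have hc : Commute a b := h.commute T hT T' (Finset.mem_of_mem_erase hT')
          (Finset.ne_of_mem_erase hT').symm a ha b hb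
        rw [e, hc.eq, inv_mul_cancel_left]
        exact ha
      exact (compLen_le_of_surjective f hf).trans compLen_le_one
  omega

theorem primitive_bound {n : ℕ} (hn2 : 2 ≤ n) (IH : ∀ m < n, Bnd m) (hn : Nat.card Ω = n)
    [hprim : IsPreprimitive G Ω] : 3 * compLen G + 4 ≤ 4 * n := by
  classical
  have : Nontrivial Ω := Finite.one_lt_card_iff_nontrivial.1 (by omega)
  have hΩ : Nonempty Ω := inferInstance
  have htr : IsPretransitive G Ω := hprim.toIsPretransitive
  obtain ⟨α⟩ := hΩ
  have : Nontrivial G := by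
    obtain ⟨a, b, hab⟩ := exists_pair_ne Ω
    obtain ⟨g, hg⟩ := htr.exists_smul_eq a b
    exact ⟨g, 1, fun e => hab (by rw [← hg, e, one_smul])⟩
  obtain ⟨N, hN⟩ := exists_isMinNormal (G := G)
  have hNn := hN.normal
  have hNfix : fixedPoints N Ω ≠ Set.univ := fun e => hN.ne_bot ((Subgroup.eq_bot_iff_forall _).2
    fun g hg => eq_one_of_fix (Ω := Ω) fun x => (e ▸ Set.mem_univ x : x ∈ fixedPoints N Ω) ⟨g, hg⟩)
  have hNtr : IsPretransitive N Ω := IsQuasiPreprimitive.isPretransitive_of_normal hNfix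
  set S := stabilizer G α
  have hSmax : IsCoatom S := (isCoatom_stabilizer_iff_preprimitive G α).2 hprim
  have hdec : ∀ g : G, ∃ x ∈ N, ∃ h ∈ S, g = x * h := fun g => by
    obtain ⟨⟨x, hx⟩, hxα⟩ := hNtr.exists_smul_eq α (g • α)
    refine ⟨x, hx, x⁻¹ * g, ?_, by group⟩
    show (x⁻¹ * g) • α = α
    rw [mul_smul]
    exact inv_smul_eq_iff.2 hxα.symm
  -- the quotient by N is a quotient of the stabiliser
  let f : S →* G ⧸ N := (QuotientGroup.mk' N).comp S.subtype
  have hf : Function.Surjective f := by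
    intro y
    obtain ⟨g, rfl⟩ := QuotientGroup.mk_surjective y
    obtain ⟨x, hx, h, hh, rfl⟩ := hdec g
    refine ⟨⟨h, hh⟩, ?_⟩
    show (QuotientGroup.mk h : G ⧸ N) = QuotientGroup.mk (x * h)
    rw [QuotientGroup.eq, ← mul_assoc]
    exact hNn.conj_mem' x hx h
  have hG := compLen_le_ker_add (QuotientGroup.mk' N) (QuotientGroup.mk'_surjective N)
  rw [QuotientGroup.ker_mk'] at hG
  obtain ⟨a, ha, ha1⟩ := exists_chain_normal f.ker
  have hS1 := add_compLen_le f hf ha
  have hSorb : 2 ≤ Nat.card (orbitRel.Quotient S Ω) := by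
    obtain ⟨β, hβ⟩ := exists_ne α
    rw [← Nat.card_fin 2]
    refine Nat.card_le_card_of_injective
      (![Quotient.mk'' α, Quotient.mk'' β] : Fin 2 → orbitRel.Quotient S Ω) ?_
    have hne : (Quotient.mk'' α : orbitRel.Quotient S Ω) ≠ Quotient.mk'' β := fun e => by
      obtain ⟨g, hg⟩ := mem_orbit_iff.1 (Quotient.exact' e.symm)
      exact hβ (hg.symm.trans g.2)
    intro i j hij
    fin_cases i <;> fin_cases j <;> first | rfl | exact absurd hij hne | exact absurd hij.symm hne
  have : FaithfulSMul S Ω := faithful_of_fix fun k hk => Subtype.ext (eq_one_of_fix hk)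
  have hSb := intransitive_bound IH S Ω hn hSorb
  have hkey : compLen N ≤ a + 1 → 3 * compLen G + 4 ≤ 4 * n := fun h => by omega
  set D := N ⊓ S with hD
  have hD1 : D ≠ ⊥ → 1 ≤ a := fun h => ha1 fun e => h ((Subgroup.eq_bot_iff_forall _).2 fun g hg => by
    have : (⟨g, hg.2⟩ : S) ∈ f.ker := (QuotientGroup.eq_one_iff g).2 hg.1
    rw [e, Subgroup.mem_bot] at this
    exact congrArg Subtype.val this)
  -- semiregularity of subgroups centralising N
  have hsemi : ∀ (C : Subgroup G), (∀ c ∈ C, ∀ x ∈ N, Commute c x) → ∀ c ∈ C, c • α = α → c = 1 := by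
    intro C hC c hc hca
    refine eq_one_of_fix (Ω := Ω) fun y => ?_
    obtain ⟨⟨x, hx⟩, hxy⟩ := hNtr.exists_smul_eq α y
    have hxy' : x • α = y := hxy
    rw [← hxy', ← mul_smul, (hC c hc x hx).eq, mul_smul, hca]
  by_cases hab : IsMulCommutative N
  · -- affine
    obtain ⟨p, hp, hexp⟩ := hN.exists_prime_pow_eq_one hab
    have := Fact.mk hp
    have hNreg : Function.Bijective (fun x : N => (x : G) • α) := by
      refine ⟨fun x y hxy => ?_, fun z => hNtr.exists_smul_eq α z⟩
      have := hsemi N (fun c hc x hx => congrArg Subtype.val (hab.is_comm.comm ⟨c, hc⟩ ⟨x, hx⟩))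
        ((y : G)⁻¹ * x) (N.mul_mem (N.inv_mem y.2) x.2) (by rw [mul_smul]; exact inv_smul_eq_iff.2 hxy)
      exact Subtype.ext (inv_mul_eq_one.1 this).symm
    have hcN : Nat.card N = n := (Nat.card_eq_of_bijective _ hNreg).trans hn
    have hpg : IsPGroup p N := fun x => ⟨1, Subtype.ext (by rw [pow_one]; exact hexp x x.2)⟩
    obtain ⟨d, hd⟩ := IsPGroup.iff_card.1 hpg
    have hcd : compLen N ≤ d := by
      refine compLen_le_cardFactors.trans ?_
      rw [hd, ArithmeticFunction.cardFactors_apply_prime_pow hp]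
    by_cases hd2 : d ≤ 1
    · exact hkey (by omega)
    let _ : CommGroup N := { (inferInstance : Group N) with mul_comm := hab.is_comm.comm }
    let ψ : S →* MulAut N := (MulAut.conjNormal (H := N)).comp S.subtype
    have hψ : Function.Injective ψ := by
      rw [injective_iff_map_eq_one]
      intro g hg
      refine Subtype.ext (hsemi (Subgroup.centralizer (N : Set G))
        (fun c hc x hx => ((Subgroup.mem_centralizer_iff.1 hc x hx).symm)) g ?_ g.2)
      refine Subgroup.mem_centralizer_iff.2 fun x hx => ?_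
      have h1 : (g : G) * x * (g : G)⁻¹ = x := by
        have := congrArg (fun φ : MulAut N => ((φ ⟨x, hx⟩ : N) : G)) hg
        simpa [ψ, MulAut.conjNormal_apply] using this
      calc x * g = (g : G) * x * (g : G)⁻¹ * g := by rw [h1]
        _ = g * x := by group
    have hdvd := card_dvd_GL p d (fun x : N => Subtype.ext (hexp x x.2)) hd ψ hψ
    have h1 := affine_arith hp (by omega : 2 ≤ d) hdvd
    have h2 : compLen S ≤ ArithmeticFunction.cardFactors (Nat.card S) := compLen_le_cardFactors
    rw [← hd, hcN] at h1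
    omega
  -- non-abelian
  obtain ⟨s, hs⟩ := hN.exists_isFactors hab
  by_cases hk1 : s.card ≤ 1
  · obtain ⟨T, hT⟩ := hs.nonempty
    have hTN : T = N := by
      have : s = {T} := Finset.eq_singleton_iff_unique_mem.2
        ⟨hT, fun x hx => Finset.card_le_one.1 hk1 x hx T hT⟩
      have := hs.sup_eq
      rwa [‹s = {T}›, Finset.sup_singleton] at this
    have := hs.simple T hT
    exact hkey (by rw [← compLen_congr (MulEquiv.subgroupCongr hTN)]; exact compLen_le_one.trans (by omega))
  by_cases hk2 : s.card ≤ 2 ∧ D ≠ ⊥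
  · exact hkey ((compLen_le_two_of_two_factors hs hk2.1).trans (by have := hD1 hk2.2; omega))
  obtain ⟨T₀, hT₀⟩ := hs.nonempty
  -- no factor lies in the stabiliser
  have hnot : ∀ T ∈ s, ¬ T ≤ D := by
    intro T hT hle
    have h1 : T = ⊥ := (Subgroup.eq_bot_iff_forall _).2 fun t ht => eq_one_of_fix (Ω := Ω) fun y => by
      obtain ⟨⟨x, hx⟩, hxy⟩ := hNtr.exists_smul_eq α y
      have hxy' : x • α = y := hxy
      have h2 : x⁻¹ * t * x ∈ T := by
        have := (Subgroup.mem_normalizer_iff.1 ((hs.normalized T hT) (N.inv_mem hx)) t).1 ht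
        simpa using this
      have h3 : (x⁻¹ * t * x) • α = α := (hle h2).2
      rw [← hxy']
      calc t • x • α = x • ((x⁻¹ * t * x) • α) := by simp [← mul_smul, mul_assoc]
        _ = x • α := by rw [h3]
    exact hs.not_comm T hT (h1 ▸ ⟨⟨fun a b => Subsingleton.elim _ _⟩⟩)
  -- all factors have the same order
  set t := Nat.card T₀ with ht
  have htT : ∀ T ∈ s, Nat.card T = t := fun T hT => by
    obtain ⟨g, hg⟩ := hs.conj T₀ hT₀ T hT
    rw [← hg, ht, Subgroup.card_map_of_injective (MulAut.conj g).injective]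
  have ht6 : 6 ≤ t := by
    have := hs.simple T₀ hT₀
    exact six_le_card (hs.not_comm T₀ hT₀)
  by_cases hB : D = ⊥ ∨ ∀ T ∈ s, N ≤ D ⊔ (s.erase T).sup id
  · -- subdirect
    obtain ⟨U, hU, hUc, hUD⟩ : ∃ U, U ⊆ s ∧ s.card ≤ 2 * U.card ∧ D ⊓ U.sup id = ⊥ :=
      hB.elim (fun hD0 => ⟨s, subset_rfl, by omega, by rw [hD0, bot_inf_eq]⟩)
        (fun hB => exists_half hs D inf_le_left hB hnot)
    obtain ⟨U, hU, hUc, hU2, hUD⟩ : ∃ U, U ⊆ s ∧ s.card ≤ 2 * U.card ∧ 2 ≤ U.card ∧ D ⊓ U.sup id = ⊥ := by
      by_cases hD0 : D = ⊥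
      · exact ⟨s, subset_rfl, by omega, by omega, by rw [hD0, bot_inf_eq]⟩
      · refine ⟨U, hU, hUc, ?_, hUD⟩
        have : ¬ s.card ≤ 2 := fun h => hk2 ⟨h, hD0⟩
        omega
    have hcard : t ^ U.card ≤ n := by
      refine (pow_le_card_sup hs t (fun T hT => (htT T hT).ge) U hU).trans ?_
      rw [← hn]
      refine Nat.card_le_card_of_injective (fun x : ↥(U.sup id) => (x : G) • α) fun x y hxy => ?_
      have h1 : (y : G)⁻¹ * x ∈ D ⊓ U.sup id := by
        have hm := (U.sup id).mul_mem ((U.sup id).inv_mem y.2) x.2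
        refine ⟨⟨sup_le_N hs hU hm, ?_⟩, hm⟩
        show ((y : G)⁻¹ * x) • α = α
        rw [mul_smul]; exact inv_smul_eq_iff.2 hxy
      rw [hUD, Subgroup.mem_bot] at h1
      exact Subtype.ext (inv_mul_eq_one.1 h1).symm
    let Y := {x : G // ∃ T ∈ s, x ∈ T}
    let _ : MulAction G Y :=
      { smul := fun g y => ⟨g * y.1 * g⁻¹, by
          obtain ⟨T, hT, hy⟩ := y.2
          exact ⟨_, hs.conj_mem T hT g, ⟨y.1, hy, rfl⟩⟩⟩
        one_smul := fun y => Subtype.ext (show (1 : G) * y.1 * 1⁻¹ = y.1 by group)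
        mul_smul := fun g h y => Subtype.ext (show g * h * y.1 * (g * h)⁻¹ = g * (h * y.1 * h⁻¹) * g⁻¹ by group) }
    have : Nonempty Y := ⟨⟨1, T₀, hT₀, T₀.one_mem⟩⟩
    have hYc : Nat.card Y ≤ s.card * t := by
      have : Nat.card ((T : {T // T ∈ s}) × T.1) = s.card * t := by
        rw [Nat.card_sigma, Finset.sum_congr rfl (fun T _ => htT T.1 T.2), Finset.sum_const,
          Finset.card_univ, Fintype.card_coe, smul_eq_mul]
      rw [← this]
      refine Nat.card_le_card_of_surjective (fun p => (⟨p.2.1, p.1.1, p.1.2, p.2.2⟩ : Y)) ?_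
      rintro ⟨y, T, hT, hy⟩
      exact ⟨⟨⟨T, hT⟩, ⟨y, hy⟩⟩, rfl⟩
    have hm := factor_arith ht6 hU2
    have hn9 : 9 ≤ n := le_trans (by nlinarith : 9 ≤ t ^ 2) (le_trans (Nat.pow_le_pow_right (by omega) hU2) hcard)
    have hkt : s.card * t ≤ 2 * U.card * t := Nat.mul_le_mul_right t hUc
    have hYn : Nat.card Y < n := by nlinarith
    have hb := image_bound IH G Y hYn
    have hK : compLen (toPermHom G Y).ker ≤ Nat.log 2 n := by
      refine compLen_le_cardFactors.trans ((cardFactors_le_log Nat.card_pos.ne').trans (Nat.log_mono_right ?_))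
      rw [← hn]
      refine Nat.card_le_card_of_injective (fun k : (toPermHom G Y).ker => (k : G) • α) fun x y hxy => ?_
      have hC : ∀ c ∈ (toPermHom G Y).ker, ∀ z ∈ N, Commute c z := by
        intro c hc
        have : N ≤ Subgroup.centralizer ({c} : Set G) := by
          rw [← hs.sup_eq]
          refine Finset.sup_le fun T hT z hz => Subgroup.mem_centralizer_singleton_iff.2 ?_
          have h1 : c * z * c⁻¹ = z :=
            congrArg Subtype.val (Equiv.ext_iff.1 (MonoidHom.mem_ker.1 hc) ⟨z, T, hT, hz⟩)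
          calc z * c = c * z * c⁻¹ * c := by rw [h1]
            _ = c * z := by group
        exact fun z hz => (Subgroup.mem_centralizer_singleton_iff.1 (this hz)).symm
      have := hsemi _ hC ((y : G)⁻¹ * x) (Subgroup.mul_mem _ (Subgroup.inv_mem _ y.2) x.2)
        (by rw [mul_smul]; exact inv_smul_eq_iff.2 hxy)
      exact Subtype.ext (inv_mul_eq_one.1 this).symm
    have := three_log_le hn9
    nlinarith
  · -- product action
    push Not at hB
    obtain ⟨hD0, T₁, hT₁, hT₁not⟩ := hB
    let KT : Subgroup G → Subgroup G := fun T => T ⊓ (D ⊔ (s.erase T).sup id)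
    have hDKs : D ≤ s.sup KT := fun x hx =>
      le_sup_components hs D s subset_rfl x (by rw [hs.sup_eq]; exact hx.1)
        fun T _ => Subgroup.mem_sup_left hx
    have hKsN : s.sup KT ≤ N := Finset.sup_le fun T hT => inf_le_left.trans (hs.le T hT)
    have hmapsup : ∀ (F : Finset (Subgroup G)) (e : G →* G) (u : Subgroup G → Subgroup G),
        (F.sup u).map e = F.sup fun T => (u T).map e := fun F e u =>
      Finset.comp_sup_eq_sup_comp (Subgroup.map e) (fun x y => Subgroup.map_sup x y _) (Subgroup.map_bot _)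
    have hconjD : ∀ h ∈ S, D.map (MulAut.conj h).toMonoidHom = D := by
      intro h hh
      ext x
      constructor
      · rintro ⟨y, hy, rfl⟩
        exact ⟨hNn.conj_mem y hy.1 h, S.mul_mem (S.mul_mem hh hy.2) (S.inv_mem hh)⟩
      · intro hx
        refine ⟨h⁻¹ * x * h, ⟨?_, S.mul_mem (S.mul_mem (S.inv_mem hh) hx.2) hh⟩, ?_⟩
        · have := hNn.conj_mem x hx.1 h⁻¹; rwa [inv_inv] at this
        · show h * (h⁻¹ * x * h) * h⁻¹ = x; group
    have hperm : ∀ g : G, s.image (fun T => T.map (MulAut.conj g).toMonoidHom) = s := fun g =>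
      Finset.eq_of_subset_of_card_le (Finset.image_subset_iff.2 fun T hT => hs.conj_mem T hT g)
        (by rw [Finset.card_image_of_injective _ (Subgroup.map_injective (MulAut.conj g).injective)])
    have hKmap : ∀ h ∈ S, ∀ T ∈ s,
        (KT T).map (MulAut.conj h).toMonoidHom = KT (T.map (MulAut.conj h).toMonoidHom) := by
      intro h hh T hT
      have hinj := Subgroup.map_injective (f := (MulAut.conj h).toMonoidHom) (MulAut.conj h).injective
      show (T ⊓ (D ⊔ (s.erase T).sup id)).map _ = _ ⊓ (D ⊔ _)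
      rw [Subgroup.map_inf _ _ _ (MulAut.conj h).injective, Subgroup.map_sup, hconjD h hh, hmapsup]
      congr 2
      conv_rhs => rw [← hperm h]
      rw [← Finset.image_erase hinj, Finset.sup_image]
      rfl
    -- the product of the KT is inside the stabiliser
    have hKsS : s.sup KT ≤ S := by
      have hnorm : S ≤ Subgroup.normalizer ((s.sup KT : Subgroup G) : Set G) := by
        have key : ∀ h ∈ S, (s.sup KT).map (MulAut.conj h).toMonoidHom ≤ s.sup KT := by
          intro h hh
          rw [hmapsup]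
          refine Finset.sup_le fun T hT => ?_
          rw [hKmap h hh T hT]
          exact Finset.le_sup (hs.conj_mem T hT h)
        intro h hh
        rw [Subgroup.mem_normalizer_iff]
        intro x
        refine ⟨fun hx => key h hh ⟨x, hx, rfl⟩, fun hx => ?_⟩
        have := key h⁻¹ (S.inv_mem hh) ⟨_, hx, rfl⟩
        simpa [mul_assoc] using this
      by_contra hc
      have htop : S ⊔ s.sup KT = ⊤ := hSmax.2 _ (lt_of_le_of_ne le_sup_left fun e => hc (e ▸ le_sup_right))
      apply hT₁not
      intro x hx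
      have hx' : x ∈ S ⊔ s.sup KT := htop ▸ Subgroup.mem_top x
      rw [← SetLike.mem_coe, Subgroup.coe_mul_of_left_le_normalizer_right _ _ hnorm] at hx'
      obtain ⟨h, hh, k, hk, e⟩ := hx'
      have hhN : h ∈ N := by
        rw [← show x * k⁻¹ = h from by rw [← e]; show h * k * k⁻¹ = h; group]
        exact N.mul_mem hx (N.inv_mem (hKsN hk))
      rw [← e]
      refine Subgroup.mul_mem _ (Subgroup.mem_sup_left ⟨hhN, hh⟩) ?_
      have hle : s.sup KT ≤ D ⊔ (s.erase T₁).sup id := by
        refine Finset.sup_le fun T hT => ?_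
        by_cases e' : T = T₁
        · subst e'; exact inf_le_right
        · exact inf_le_left.trans (le_sup_of_le_right (Finset.le_sup (f := id) (Finset.mem_erase.2 ⟨e', hT⟩)))
      exact hle hk
    have hKS : ∀ T ∈ s, KT T ≤ S := fun T hT => (Finset.le_sup hT).trans hKsS
    -- orbit sizes of the factors
    have horb : ∀ T ∈ s, ∀ T' ∈ s, ∃ h ∈ S, T.map (MulAut.conj h).toMonoidHom = T' := by
      intro T hT T' hT'
      obtain ⟨g, hg⟩ := hs.conj T hT T' hT'
      obtain ⟨x, hx, h, hh, rfl⟩ := hdec g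
      refine ⟨h, hh, ?_⟩
      have hfix : ∀ T'' ∈ s, T''.map (MulAut.conj x⁻¹).toMonoidHom = T'' := by
        intro T'' hT''
        have := hs.normalized T'' hT'' (N.inv_mem hx)
        exact Subgroup.mem_normalizer_iff_map_conj_eq.1 this
      rw [← hfix T' hT', ← hg, Subgroup.map_map]
      congr 1
      ext y
      show h * y * h⁻¹ = x⁻¹ * (x * h * y * (x * h)⁻¹) * x⁻¹⁻¹
      group
    obtain ⟨a0, ha0⟩ : ∃ a0, (orbitOf α T₁).ncard = a0 := ⟨_, rfl⟩
    have hsame : ∀ T ∈ s, (orbitOf α T).ncard = a0 := by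
      intro T hT
      obtain ⟨h, hh, hmap⟩ := horb T₁ hT₁ T hT
      rw [← ha0, ← hmap]
      have hh' : h⁻¹ • α = α := S.inv_mem hh
      have : orbitOf α (T₁.map (MulAut.conj h).toMonoidHom) = (fun y => h • y) '' orbitOf α T₁ := by
        ext y
        constructor
        · rintro ⟨_, ⟨u, hu, rfl⟩, rfl⟩
          refine ⟨u • α, ⟨u, hu, rfl⟩, ?_⟩
          show h • u • α = (h * u * h⁻¹) • α
          rw [mul_smul, hh', mul_smul]
        · rintro ⟨_, ⟨u, hu, rfl⟩, rfl⟩
          refine ⟨h * u * h⁻¹, ⟨u, hu, rfl⟩, ?_⟩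
          show (h * u * h⁻¹) • α = h • u • α
          rw [mul_smul, hh', mul_smul]
      rw [this, Set.ncard_image_of_injective _ (MulAction.injective h)]
    have hidxT : (S.subgroupOf T₁).index = a0 := by
      rw [← ha0, show S.subgroupOf T₁ = stabilizer T₁ α by
        ext; simp [S, Subgroup.mem_subgroupOf, Subgroup.smul_def], index_stabilizer]
      congr 1
      ext y
      constructor
      · rintro ⟨u, rfl⟩; exact ⟨u, u.2, rfl⟩
      · rintro ⟨u, hu, rfl⟩; exact ⟨⟨u, hu⟩, rfl⟩
    have ha3 : 3 ≤ a0 := by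
      by_contra hc
      have hne : (S.subgroupOf T₁).index ≠ 0 := Subgroup.index_ne_zero_of_finite
      have hS1' : ¬ T₁ ≤ S := fun e => hnot T₁ hT₁ (le_inf (hs.le T₁ hT₁) e)
      have hi1 : (S.subgroupOf T₁).index ≠ 1 := fun e =>
        hS1' (Subgroup.subgroupOf_eq_top.1 (Subgroup.index_eq_one.1 e))
      have hi2 : (S.subgroupOf T₁).index = 2 := by omega
      have hnorm2 := Subgroup.normal_of_index_eq_two hi2
      have := hs.simple T₁ hT₁
      rcases Subgroup.Normal.eq_bot_or_eq_top hnorm2 with e | e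
      · rw [e, Subgroup.index_bot] at hi2
        have := six_le_card (hs.not_comm T₁ hT₁)
        omega
      · exact hi1 (by rw [e, Subgroup.index_top])
    have hcard : a0 ^ s.card ≤ n := by
      refine (pow_le_orbitOf_sup hs α hKS a0 (fun T hT => (hsame T hT).ge) s subset_rfl).trans ?_
      rw [← hn, ← Set.ncard_univ]
      exact Set.ncard_le_ncard (Set.subset_univ _)
    -- the subgroups of the factors
    obtain ⟨T₂, hT₂, hT₂K⟩ : ∃ T ∈ s, KT T ≠ ⊥ := by
      by_contra hc
      push Not at hc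
      exact hD0 (le_bot_iff.1 (hDKs.trans (Finset.sup_le fun T hT => (hc T hT).le)))
    have hK₁ : KT T₁ ≠ ⊥ := by
      intro e
      obtain ⟨h, hh, hmap⟩ := horb T₁ hT₁ T₂ hT₂
      apply hT₂K
      rw [← hmap, ← hKmap h hh T₁ hT₁, e, Subgroup.map_bot]
    let _ : MulAction G (Subgroup G) :=
      { smul := fun g H => H.map (MulAut.conj g).toMonoidHom
        one_smul := fun H => by
          show H.map (MulAut.conj (1 : G)).toMonoidHom = H
          rw [map_one]; exact Subgroup.map_id H
        mul_smul := fun g h H => by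
          show H.map (MulAut.conj (g * h)).toMonoidHom =
            (H.map (MulAut.conj h).toMonoidHom).map (MulAut.conj g).toMonoidHom
          rw [Subgroup.map_map, map_mul]; rfl }
    let Y := orbit G (KT T₁)
    have : Nonempty Y := ⟨⟨_, mem_orbit_self _⟩⟩
    have hYc : Nat.card Y ≤ s.card * a0 := by
      have hsum : Nat.card ((T : {T // T ∈ s}) × orbitOf α T.1) = s.card * a0 := by
        rw [Nat.card_sigma, Finset.sum_congr rfl (fun T _ => (Nat.card_coe_set_eq _).trans (hsame T.1 T.2)),
          Finset.sum_const, Finset.card_univ, Fintype.card_coe, smul_eq_mul]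
      rw [← hsum]
      have hch : ∀ p : (T : {T // T ∈ s}) × orbitOf α T.1, ∃ u ∈ p.1.1, u • α = p.2.1 := fun p => p.2.2
      choose u hu hua using hch
      have hmem : ∀ p, (KT p.1.1).map (MulAut.conj (u p)).toMonoidHom ∈ Y := by
        intro p
        obtain ⟨h, hh, hmap⟩ := horb T₁ hT₁ p.1.1 p.1.2
        refine mem_orbit_iff.2 ⟨u p * h, ?_⟩
        rw [mul_smul]
        show ((KT T₁).map (MulAut.conj h).toMonoidHom).map _ = _
        rw [hKmap h hh T₁ hT₁, hmap]
      refine Nat.card_le_card_of_surjective (fun p => (⟨_, hmem p⟩ : Y)) ?_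
      rintro ⟨H, hH⟩
      obtain ⟨g, rfl⟩ := mem_orbit_iff.1 hH
      obtain ⟨x, hx, h, hh, rfl⟩ := hdec g
      set T := T₁.map (MulAut.conj h).toMonoidHom with hT
      have hTs : T ∈ s := hs.conj_mem T₁ hT₁ h
      obtain ⟨v, hv, c, hc, rfl⟩ := hs.exists_mul hTs hx
      refine ⟨⟨⟨T, hTs⟩, ⟨v • α, v, hv, rfl⟩⟩, Subtype.ext ?_⟩
      set p : (T : {T // T ∈ s}) × orbitOf α T.1 := ⟨⟨T, hTs⟩, ⟨v • α, v, hv, rfl⟩⟩
      show (KT T).map (MulAut.conj (u p)).toMonoidHom = (v * c * h) • KT T₁
      rw [mul_smul, mul_smul]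
      show _ = (((KT T₁).map (MulAut.conj h).toMonoidHom).map (MulAut.conj c).toMonoidHom).map
        (MulAut.conj v).toMonoidHom
      rw [hKmap h hh T₁ hT₁, ← hT]
      have hcfix : (KT T).map (MulAut.conj c).toMonoidHom = KT T := by
        refine Subgroup.mem_normalizer_iff_map_conj_eq.1 (Subgroup.centralizer_le_normalizer _
          (Subgroup.mem_centralizer_iff.2 fun z hz => ?_))
        exact (sup_commute hs hTs (Finset.erase_subset T s) (Finset.notMem_erase T s) hz.1 hc).eq
      rw [hcfix]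
      have hw : v⁻¹ * u p ∈ KT T := by
        have h1 : v⁻¹ * u p ∈ T := T.mul_mem (T.inv_mem hv) (hu p)
        refine ⟨h1, Subgroup.mem_sup_left ⟨hs.le T hTs h1, ?_⟩⟩
        show (v⁻¹ * u p) • α = α
        rw [mul_smul]
        exact inv_smul_eq_iff.2 (hua p)
      have hfix : (KT T).map (MulAut.conj (v⁻¹ * u p)).toMonoidHom = KT T :=
        Subgroup.mem_normalizer_iff_map_conj_eq.1 (Subgroup.le_normalizer hw)
      conv_rhs => rw [← hfix, Subgroup.map_map]
      congr 1
      ext z
      show u p * z * (u p)⁻¹ = v * (v⁻¹ * u p * z * (v⁻¹ * u p)⁻¹) * v⁻¹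
      group
    have hka := mul_lt_pow_self_of_three_le ha3 (by omega : 2 ≤ s.card)
    have hb := image_bound IH G Y (by omega)
    have hker : (toPermHom G Y).ker = ⊥ := by
      set R := (toPermHom G Y).ker
      have hRn : R.Normal := inferInstance
      have hfixK : ∀ g ∈ R, (KT T₁).map (MulAut.conj g).toMonoidHom = KT T₁ := fun g hg =>
        congrArg Subtype.val (Equiv.ext_iff.1 (MonoidHom.mem_ker.1 hg) ⟨KT T₁, mem_orbit_self _⟩)
      rcases hN.le_or_inf_eq_bot hRn with hle | hinf
      · exfalso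
        have h1 : KT T₁ = T₁ := hs.eq_of_normalized_le hT₁ inf_le_left hK₁ fun x hx =>
          Subgroup.mem_normalizer_iff_map_conj_eq.2 (hfixK x (hle (hs.le T₁ hT₁ hx)))
        exact hnot T₁ hT₁ (le_inf (hs.le T₁ hT₁) (h1.symm.le.trans (hKS T₁ hT₁)))
      · by_contra hR
        have hRfix : fixedPoints R Ω ≠ Set.univ := fun e => hR ((Subgroup.eq_bot_iff_forall _).2
          fun g hg => eq_one_of_fix (Ω := Ω) fun x => (e ▸ Set.mem_univ x : x ∈ fixedPoints R Ω) ⟨g, hg⟩)
        have hRtr : IsPretransitive R Ω := IsQuasiPreprimitive.isPretransitive_of_normal hRfix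
        apply hD0
        refine (Subgroup.eq_bot_iff_forall _).2 fun g hg => eq_one_of_fix (Ω := Ω) fun y => ?_
        obtain ⟨⟨x, hx⟩, hxy⟩ := hRtr.exists_smul_eq α y
        have hxy' : x • α = y := hxy
        have hc : Commute g x := Subgroup.commute_of_normal_of_disjoint N R hNn hRn
          (disjoint_iff.2 hinf) g x hg.1 hx
        rw [← hxy', ← mul_smul, hc.eq, mul_smul, show g • α = α from hg.2]
    rw [hker] at hb
    rw [compLen_of_subsingleton (G := (⊥ : Subgroup G))] at hb
    omega

end Primitive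

theorem bnd_all (n : ℕ) : Bnd n := by
  induction n using Nat.strong_induction_on with
  | _ n IH =>
    intro G Ω _ _ _ _ _ hn
    rcases Nat.lt_or_ge (Nat.card (orbitRel.Quotient G Ω)) 2 with hr | hr
    swap
    · exact intransitive_bound IH G Ω hn hr
    by_cases hn2 : n ≤ 1
    · have hsub : Subsingleton Ω := Finite.card_le_one_iff_subsingleton.1 (by omega)
      have : Subsingleton G := ⟨fun a b => FaithfulSMul.eq_of_smul_eq_smul (α := Ω) fun x =>
        Subsingleton.elim _ _⟩
      have : Nat.card (orbitRel.Quotient G Ω) ≤ Nat.card Ω :=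
        Nat.card_le_card_of_surjective _ Quotient.mk''_surjective
      rw [compLen_of_subsingleton]
      omega
    have hΩ : Nonempty Ω := (Nat.card_pos_iff.1 (by omega : 0 < Nat.card Ω)).1
    obtain ⟨α⟩ := hΩ
    have hone : Nat.card (orbitRel.Quotient G Ω) = 1 := by
      have : 0 < Nat.card (orbitRel.Quotient G Ω) :=
        Nat.card_pos_iff.2 ⟨⟨Quotient.mk'' α⟩, inferInstance⟩
      omega
    have htr : IsPretransitive G Ω := ⟨fun a b => by
      have := Finite.card_le_one_iff_subsingleton.1 hone.le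
      exact mem_orbit_iff.1 (Quotient.exact' (Subsingleton.elim
        (Quotient.mk'' b : orbitRel.Quotient G Ω) (Quotient.mk'' a)))⟩
    rw [hone]
    have : Nontrivial Ω := Finite.one_lt_card_iff_nontrivial.1 (by omega)
    by_cases hp : IsPreprimitive G Ω
    · exact primitive_bound (by omega) IH hn
    · have hnc : ¬ IsCoatom (stabilizer G α) := fun h =>
        hp ((isCoatom_stabilizer_iff_preprimitive G α).1 h)
      have hne : stabilizer G α ≠ ⊤ := fun e => by
        have h := index_stabilizer_of_transitive G α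
        rw [e, Subgroup.index_top] at h
        omega
      obtain ⟨H, h1, h2⟩ : ∃ H, stabilizer G α < H ∧ H < ⊤ := by
        by_contra hc
        push Not at hc
        exact hnc ⟨hne, fun H hH => by
          by_contra h
          exact hc H hH (lt_top_iff_ne_top.2 h)⟩
      exact imprimitive_bound IH G Ω hn α H h1 h2

/-- Any faithful finite permutation group. -/
theorem three_mul_compLen_le {G Ω : Type*} [Group G] [Finite G] [MulAction G Ω] [FaithfulSMul G Ω] [Finite Ω] :
    3 * compLen G + 4 * Nat.card (orbitRel.Quotient G Ω) ≤ 4 * Nat.card Ω := by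
  obtain ⟨n, ⟨e⟩⟩ := Finite.exists_equiv_fin Ω
  let f : G →* Equiv.Perm (Fin n) := e.permCongrHom.toMonoidHom.comp (toPermHom G Ω)
  have hf : Function.Injective f := e.permCongrHom.injective.comp toPerm_injective
  have h := bnd_all n f.range (Fin n) (Nat.card_fin n)
  have hfapp : ∀ (g : G) (x : Ω), f g (e x) = e (g • x) := fun g x => by
    show e (g • e.symm (e x)) = e (g • x)
    rw [Equiv.symm_apply_apply]
  rw [compLen_congr (MonoidHom.ofInjective hf), show Nat.card Ω = n from (Nat.card_congr e).trans (Nat.card_fin n)]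
  have hle : Nat.card (orbitRel.Quotient G Ω) ≤ Nat.card (orbitRel.Quotient f.range (Fin n)) := by
    refine Nat.card_le_card_of_surjective (Quotient.lift (fun i : Fin n => Quotient.mk'' (e.symm i)) ?_) ?_
    · intro a b hab
      obtain ⟨⟨_, g, rfl⟩, hg⟩ := mem_orbit_iff.1 hab
      apply Quotient.sound'
      refine mem_orbit_iff.2 ⟨g, ?_⟩
      rw [← hg]
      show g • e.symm b = e.symm (e (g • e.symm b))
      rw [Equiv.symm_apply_apply]
    · intro q
      induction q using Quotient.inductionOn' with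
      | h x => exact ⟨Quotient.mk'' (e x), by simp⟩
  omega


end CfsgLib.CompLength
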